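import Cfsg.Agent.LargeExtra.Pair
import Cfsg.Agent.Components.FStar

/-!
Recognising large extraspecial subgroups.
-/

set_option autoImplicit false

namespace Cfsg.Agent.LargeExtra

open Cfsg

variable {G : Type*} [Group G] [Finite G]

/-- From a self-centralising extraspecial `Q` normal in the centraliser of its centre, together with an
element of `Q` whose centraliser normalises a 2-subgroup containing the central involution. -/
theorem isLarge_of {Q : Subgroup G} {z : G} (h : CentralInvolution Q z)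
    (hL2 : Subgroup.centralizer (Q : Set G) ≤ Subgroup.zpowers z)
    (hL3 : Subgroup.centralizer ({z} : Set G) ≤ Subgroup.normalizer (Q : Set G))
    {b : G} (hb : b ∈ Q) (hb1 : b ≠ 1) (hbz : b ≠ z) (hb2 : b * b = 1)
    {T : Subgroup G} (hT : IsPGroup 2 ↥T) (hzT : z ∈ T)
    (hbT : Subgroup.centralizer ({b} : Set G) ≤ Subgroup.normalizer (T : Set G)) :
    IsLargeExtraspecial Q := by
  have h2 : Subgroup.centralizer (Q : Set G) = (Subgroup.center ↥Q).map Q.subtype := by
    rw [h.center_eq]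
    exact le_antisymm hL2 (Subgroup.zpowers_le.2 fun q hq => h.comm q hq)
  have h3 : Subgroup.centralizer (((Subgroup.center ↥Q).map Q.subtype : Subgroup G) : Set G) ≤
      Subgroup.normalizer (Q : Set G) := by rwa [h.centralizer_center]
  refine ⟨h.extra, h2, h3, fun K hK hQK => ?_⟩
  have hzb : z * b = b * z := (h.comm b hb).symm
  have e1 : ∀ k ∈ K, k * z = z * k → k = 1 := fun k hk => eq_one_of_centralizes h h2 h3 hK hQK hk
  have e2 : ∀ k ∈ K, k * b = b * k → k = 1 := fun k hk hkb =>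
    e1 k hk (commute_of_two_subgroup hK hT hzT (hQK h.mem) hk
      (hbT (Subgroup.mem_centralizer_singleton_iff.2 hkb)))
  refine eq_bot_of_three_fpf h.sq hb2 hzb (hQK h.mem) (hQK hb) e1 e2 fun k hk hkzb => ?_
  obtain ⟨q, hq, hqb⟩ := h.exists_swap hb hb1 hbz
  have hzq : q * z * q⁻¹ = z := by rw [h.comm q hq, mul_inv_cancel_right]
  have e : q * (z * b) * q⁻¹ = b := by
    calc q * (z * b) * q⁻¹ = (q * z * q⁻¹) * (q * b * q⁻¹) := by group
      _ = z * (b * z) := by rw [hzq, hqb]
      _ = b := by rw [← mul_assoc, hzb, mul_assoc, h.sq, mul_one]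
  refine conj_eq_one_iff.1 (e2 (q * k * q⁻¹) ((Subgroup.mem_normalizer_iff.1 (hQK hq) k).1 hk) ?_)
  calc q * k * q⁻¹ * b = q * (k * (z * b)) * q⁻¹ := by
        nth_rewrite 1 [← e]; group
    _ = q * (z * b * k) * q⁻¹ := by rw [hkzb]
    _ = (q * (z * b) * q⁻¹) * (q * k * q⁻¹) := by group
    _ = b * (q * k * q⁻¹) := by rw [e]

theorem normalizes_pCore_map {H : Subgroup G} (p : ℕ) :
    H ≤ Subgroup.normalizer (((pCore p ↥H).map H.subtype : Subgroup G) : Set G) := by
  intro x hx
  have hn : (pCore p ↥H).Normal := inferInstance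
  refine Subgroup.mem_normalizer_iff.2 fun y => ⟨?_, ?_⟩
  · rintro ⟨w, hw, rfl⟩
    exact ⟨⟨x, hx⟩ * w * ⟨x, hx⟩⁻¹, hn.conj_mem w hw _, rfl⟩
  · rintro ⟨w, hw, he⟩
    refine ⟨⟨x, hx⟩⁻¹ * w * ⟨x, hx⟩, by simpa using hn.conj_mem w hw ⟨x, hx⟩⁻¹, ?_⟩
    calc x⁻¹ * (w : G) * x = x⁻¹ * (H.subtype w) * x := rfl
      _ = y := by rw [he]; group

/-- The generalized Fitting subgroup of the centraliser of `z`, when extraspecial, is large as soon as it
contains an element as in `isLarge_of`. -/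
theorem centralInvolution_of_genFitting {z : G} (hz : orderOf z = 2) {Q : Subgroup G}
    (hF : (generalizedFittingSubgroup ↥(Subgroup.centralizer ({z} : Set G))).map
      (Subgroup.centralizer ({z} : Set G)).subtype = Q) (hQ : IsExtraspecial 2 ↥Q) :
    CentralInvolution Q z ∧ Subgroup.centralizer (Q : Set G) ≤ Subgroup.zpowers z ∧
      Subgroup.centralizer ({z} : Set G) ≤ Subgroup.normalizer (Q : Set G) := by
  set C := Subgroup.centralizer ({z} : Set G) with hC
  have hzC : z ∈ C := Subgroup.mem_centralizer_singleton_iff.2 rfl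
  have hle : Q ≤ C := hF ▸ Subgroup.map_subtype_le _
  have hzQ : z ∈ Q := by
    rw [← hF]
    refine ⟨⟨z, hzC⟩, Components.centralizer_genFitting_le ?_, rfl⟩
    intro x _
    exact Subtype.ext (Subgroup.mem_centralizer_singleton_iff.1 x.2)
  have hz1 : z ≠ 1 := fun e => by simp [e] at hz
  obtain ⟨y, hy⟩ := exists_centralInvolution hQ
  obtain rfl : z = y := (hy.of_central z hzQ fun q hq =>
    Subgroup.mem_centralizer_singleton_iff.1 (hle hq)).resolve_left hz1
  refine ⟨hy, fun x hx => ?_, fun x hx => ?_⟩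
  · have hxC : x ∈ C := Subgroup.mem_centralizer_singleton_iff.2 (hx z hy.mem).symm
    have hxQ : x ∈ Q := by
      rw [← hF]
      refine ⟨⟨x, hxC⟩, Components.centralizer_genFitting_le fun w hw => Subtype.ext ?_, rfl⟩
      exact hx w (hF ▸ ⟨w, hw, rfl⟩)
    exact hy.mem_zpowers_iff.2 (hy.of_central x hxQ fun q hq => hx q hq)
  · have hn : (generalizedFittingSubgroup ↥C).Normal := Components.genFitting_normal
    refine Subgroup.mem_normalizer_iff.2 fun w => ?_
    rw [← hF]
    constructor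
    · rintro ⟨v, hv, rfl⟩
      exact ⟨⟨x, hx⟩ * v * ⟨x, hx⟩⁻¹, hn.conj_mem v hv _, rfl⟩
    · rintro ⟨v, hv, he⟩
      refine ⟨⟨x, hx⟩⁻¹ * v * ⟨x, hx⟩, by simpa using hn.conj_mem v hv ⟨x, hx⟩⁻¹, ?_⟩
      calc x⁻¹ * (v : G) * x = x⁻¹ * (C.subtype v) * x := rfl
        _ = w := by rw [he]; group

/-- A conjugate of the central involution in `Q`, other than itself, makes `Q` large. -/
theorem isLarge_of_conj {Q : Subgroup G} {z : G} (h : CentralInvolution Q z)
    (hL2 : Subgroup.centralizer (Q : Set G) ≤ Subgroup.zpowers z)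
    (hL3 : Subgroup.centralizer ({z} : Set G) ≤ Subgroup.normalizer (Q : Set G))
    {w : ℕ} (hw : 2 ≤ w) (hcard : Nat.card ↥Q = 2 ^ (2 * w + 1))
    {g : G} (hgQ : g * z * g⁻¹ ∈ Q) (hne : g * z * g⁻¹ ≠ z) : IsLargeExtraspecial Q := by
  have hL2' : Subgroup.centralizer (Q : Set G) = Subgroup.zpowers z :=
    le_antisymm hL2 (Subgroup.zpowers_le.2 fun q hq => h.comm q hq)
  refine isLarge_of h hL2 hL3 hgQ (h.conj g).ne_one hne (h.conj g).sq (h.conj g).isPGroup
    (mem_conj_of_conj_mem h hL2' hL3 hw hcard hgQ hne) fun c hc => ?_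
  have hd : g⁻¹ * c * g ∈ Subgroup.centralizer ({z} : Set G) := by
    rw [Subgroup.mem_centralizer_singleton_iff] at hc ⊢
    calc g⁻¹ * c * g * z = g⁻¹ * (c * (g * z * g⁻¹)) * g := by group
      _ = z * (g⁻¹ * c * g) := by rw [hc]; group
  have := Subgroup.le_normalizer_map (H := Q) (MulAut.conj g).toMonoidHom ⟨_, hL3 hd, rfl⟩
  simpa [mul_assoc] using this

end Cfsg.Agent.LargeExtra
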